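import Mathlib.Tactic

/-!
# Arithmetic for self-centralization systems of type (2, 4, 4)
-/

set_option autoImplicit false

namespace Cfsg.Lib.SCS.Num

theorem numA1 {n N X r : ℤ} (hn : 5 ≤ n) (ho : Odd n) (hN : 81 ≤ N) (hd : N ∣ X + 1)
    (hX : X + 1 ≠ 0) (hr : 0 < r) (hr1 : r ≠ 1) (hm : n ∣ r ^ 2 - 1)
    (hb : r ^ 2 * (n * (X * (X + 1))) ≤ 3 * n ^ 2 * N ^ 2) :
    |X + 1| = N ∧ (r ^ 2 = n + 1 ∨ r ^ 2 = 3 * n + 1) := by
  obtain ⟨k, hk⟩ := (dvd_abs _ _).2 hd
  obtain ⟨j, hj⟩ := hm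
  have hk0 : 1 ≤ k := by
    have := abs_pos.2 hX
    by_contra h; nlinarith
  have hj0 : 1 ≤ j := by
    have : 2 ≤ r := by omega
    by_contra h; nlinarith
  have hXX : N * k * (N * k - 1) ≤ X * (X + 1) := by
    rcases abs_cases (X + 1) with h | h <;> nlinarith
  have h1 : (n * j + 1) * (k * (N * k - 1)) ≤ 3 * n * N := by
    have e : r ^ 2 = n * j + 1 := by linarith
    rw [e] at hb
    have p1 : 0 < n * j + 1 := by positivity
    have : (n * j + 1) * (n * (N * k * (N * k - 1))) ≤ 3 * n ^ 2 * N ^ 2 :=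
      le_trans (by gcongr) hb
    have p2 : 0 < n * N := by positivity
    nlinarith
  have hk1 : k = 1 := by
    by_contra h
    have h2 : 2 ≤ k := by omega
    have : 2 * (N * 2 - 1) ≤ k * (N * k - 1) := by
      have : N * 2 ≤ N * k := by gcongr
      nlinarith
    have : (n + 1) * (2 * (N * 2 - 1)) ≤ (n * j + 1) * (k * (N * k - 1)) := by
      have : n ≤ n * j := by nlinarith
      have : 0 ≤ 2 * (N * 2 - 1) := by omega
      gcongr
    nlinarith
  subst hk1
  refine ⟨by rw [hk, mul_one], ?_⟩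
  have hj3 : j ≤ 3 := by
    by_contra h
    have : n * 4 ≤ n * j := by gcongr; omega
    nlinarith
  interval_cases j
  · left; linarith
  · exfalso
    obtain ⟨m, rfl⟩ := ho
    rcases Int.even_or_odd' r with ⟨s, rfl | rfl⟩
    · have : 4 * (s ^ 2 - m) = 3 := by linarith
      omega
    · have : 4 * (s ^ 2 + s - m) = 2 := by linarith
      omega
  · right; linarith

theorem numA2 {n X r a : ℤ} (hn : 5 ≤ n) (hN : 81 ≤ |X + 1|) (hN4 : |X + 1| % 4 = 1)
    (hr : 0 < r) (hm : r ^ 2 = n + 1 ∨ r ^ 2 = 3 * n + 1) (hd : n ∣ X - 1)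
    (h1 : |X - a| ≤ r * |a|) (h2 : (n - 1) * (a + 1) ^ 2 < 2 * (r * |X - a|)) : False := by
  have h3 : (n - 1) * (a + 1) ^ 2 < 2 * (3 * n + 1) * |a| := by
    have : r * |X - a| ≤ r ^ 2 * |a| := by nlinarith
    have : r ^ 2 * |a| ≤ (3 * n + 1) * |a| := by
      gcongr
      rcases hm with h | h <;> linarith
    linarith
  have h4 : (a + 1) ^ 2 < 8 * |a| := by
    have := abs_nonneg a
    by_contra h
    nlinarith
  have ha1 : -9 ≤ a := by
    by_contra h
    rw [abs_of_neg (by omega)] at h4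
    nlinarith
  have ha2 : a ≤ 5 := by
    by_contra h
    rw [abs_of_pos (by omega)] at h4
    nlinarith
  have h5 : |X - a| ≤ 9 * r := by
    have : |a| ≤ 9 := abs_le.2 ⟨ha1, by omega⟩
    nlinarith
  have h6 : n ≤ |X - 1| := Int.le_of_dvd (abs_pos.2 (by
    intro h; rw [show X + 1 = 2 by omega] at hN; norm_num at hN)) ((dvd_abs _ _).2 hd)
  have h7 : n ≤ 9 * r + 10 := by
    rcases abs_cases (X - 1) with h | h <;> rcases abs_cases (X - a) with h' | h' <;> omega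
  have h8 : r ≤ 28 := by
    by_contra h
    rcases hm with h' | h' <;> nlinarith
  have h9 : 8 ≤ r := by
    rcases abs_cases (X + 1) with h | h <;> rcases abs_cases (X - a) with h' | h' <;> omega
  obtain ⟨j, hj⟩ := hd
  have h10 : 21 ≤ n := by rcases hm with h' | h' <;> nlinarith
  have h11 : |X - 1| ≤ 9 * r + 10 := by
    rcases abs_cases (X - 1) with h | h <;> rcases abs_cases (X - a) with h' | h' <;> omega
  have h12 : r ^ 2 - 1 ≤ 3 * n := by rcases hm with h' | h' <;> nlinarith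
  have h13 : |j| ≤ 4 := by
    rw [hj, abs_mul, abs_of_pos (by omega)] at h11
    by_contra h
    have : n * 5 ≤ n * |j| := by gcongr; omega
    nlinarith
  obtain rfl : X = 1 + n * j := by linarith
  have key : ∀ r ∈ Finset.Icc (8 : ℤ) 28, ∀ j ∈ Finset.Icc (-4 : ℤ) 4, ∀ a ∈ Finset.Icc (-9 : ℤ) 5,
      ∀ n ∈ ({r ^ 2 - 1, (r ^ 2 - 1) / 3} : Finset ℤ), (r ^ 2 = n + 1 ∨ r ^ 2 = 3 * n + 1) →
      81 ≤ |1 + n * j + 1| → |1 + n * j + 1| % 4 = 1 → |1 + n * j - a| ≤ r * |a| →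
      ¬ (n - 1) * (a + 1) ^ 2 < 2 * (r * |1 + n * j - a|) := by decide +kernel
  refine key r (Finset.mem_Icc.2 ⟨h9, h8⟩) j (Finset.mem_Icc.2 (abs_le.1 h13)) a
    (Finset.mem_Icc.2 ⟨ha1, ha2⟩) n ?_ hm hN hN4 h1 h2
  simp only [Finset.mem_insert, Finset.mem_singleton]
  omega

theorem numB' {p j w P : ℤ} (hp : 9 ≤ p) (hw : 0 ≤ w) (hw4 : w ≤ 4) (hP : P = (4 * p + 1) * p)
    (hj0 : 1 ≤ j) (e2 : 3 * j < P)
    (e1 : P * (3 * j - (p + 4 + w)) = j * (j + (p + 4 + w)) - 8) : False := by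
  have hP0 : 0 < P := by omega
  rcases le_or_gt (3 * j - (p + 4 + w)) 0 with h | h
  · nlinarith
  · obtain ⟨r, hr⟩ : ∃ r, r = 3 * j - (p + 4 + w) := ⟨_, rfl⟩
    have e3 : r * (9 * P - 5 * (p + 4 + w) - r) = 4 * (p + 4 + w) ^ 2 - 72 := by
      rw [hr]; linarith
    have e4 : 8 * P - 5 * (p + 8) ≤ 9 * P - 5 * (p + 4 + w) - r := by linarith
    have e5 : 0 ≤ 8 * P - 5 * (p + 8) := by nlinarith
    have e6 : 1 * (8 * P - 5 * (p + 8)) ≤ r * (9 * P - 5 * (p + 4 + w) - r) :=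
      mul_le_mul (by omega) e4 e5 (by omega)
    have e7 : (p + 4 + w) ^ 2 ≤ (p + 8) ^ 2 := pow_le_pow_left₀ (by omega) (by omega) 2
    nlinarith

theorem numB {n p q k c w : ℤ} (hp : 9 ≤ p) (hpq : p ≤ q) (hk : 1 ≤ k) (hc : 0 ≤ c)
    (h1 : 4 * c * n * (p * q) = k * n * (p + q) - 2 * k * (p * q) - 4)
    (h2 : 2 * n = p + q + 4 + w) (hw : 0 ≤ w) (hwc : w ≤ 4 * c) (hb : k ^ 2 < 3 * n) : False := by
  have h3 : (k * (p + q) - 4 * c * (p * q)) * (p + q + 4 + w) = 4 * k * (p * q) + 8 := by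
    rw [← h2]; linarith
  rcases hc.eq_or_lt with rfl | hc
  · obtain rfl : w = 0 := by omega
    have : k * ((p - q) ^ 2 + 4 * (p + q)) = 8 := by linarith
    nlinarith [sq_nonneg (p - q)]
  have hq : 9 ≤ q := by omega
  have h4 : 0 < k * (p + q) - 4 * c * (p * q) := by
    by_contra h
    have : 0 < k * (p * q) := by positivity
    nlinarith
  have h5 : 2 * c * p < k := by
    by_contra h
    have : k * (p + q) ≤ 2 * c * p * (q + q) := by gcongr; omega
    nlinarith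
  obtain ⟨d, rfl⟩ : ∃ d, k = 4 * c * p + d := ⟨k - 4 * c * p, by ring⟩
  set k := 4 * c * p + d with hkd
  have h6 : q * (3 * (k * p) - d * (p + 4 + w) - d * q) = k * p * (p + 4 + w) - 8 := by
    rw [hkd] at h3 ⊢; linarith
  have hP : 9 ≤ k * p := by nlinarith
  rcases le_or_gt d 0 with hd | hd
  · have : q * (3 * (k * p)) ≤ q * (3 * (k * p) - d * (p + 4 + w) - d * q) := by
      gcongr
      nlinarith
    have : 3 * q < p + 4 + w := by
      by_contra h
      nlinarith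
    have : 18 * c < k := by nlinarith
    nlinarith
  have h7 : 0 < 3 * (k * p) - d * (p + 4 + w) - d * q := by
    by_contra h
    nlinarith
  have h8 : 2 * k * d < 9 * p := by
    have : d * (2 * n) < 3 * (k * p) := by rw [h2]; linarith
    by_contra h
    nlinarith
  have h9 : c * d ≤ 1 := by
    by_contra h
    have : 2 * p ≤ c * d * p := by gcongr; omega
    nlinarith
  obtain rfl : c = 1 := by nlinarith
  obtain rfl : d = 1 := by omega
  obtain ⟨j, hj⟩ : ∃ j, j = 3 * (k * p) - (p + 4 + w) - q := ⟨_, rfl⟩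
  have hj0 : 1 ≤ j := by linarith
  have e1 : k * p * (3 * j - (p + 4 + w)) = j * (j + (p + 4 + w)) - 8 := by
    have : q = 3 * (k * p) - (p + 4 + w) - j := by linarith
    rw [one_mul, one_mul, ← hj, this] at h6
    linarith
  have hk' : k = 4 * p + 1 := by rw [hkd]; ring
  have e0 : 2 * k ^ 2 < 9 * (k * p) - 3 * j := by linarith
  refine numB' hp hw (by linarith) (by rw [hk']) hj0 ?_ e1
  rw [hk'] at e0 ⊢
  clear e1 hj h6 h7 h8 h9 h1 h3 h4 h5
  nlinarith

theorem numS {n X k e : ℕ} (hn : Odd n) (hX : Even X) (hX0 : 0 < X) (he : e < 2 ^ k)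
    (h : n * (X * (X + 1)) = 2 ^ k * (2 ^ k + 1) * e) : X = 2 ^ k := by
  obtain ⟨r, rfl⟩ : 2 ^ k ∣ X := by
    refine Nat.Coprime.dvd_of_dvd_mul_right (Nat.Coprime.pow_left k
      (Nat.coprime_two_left.2 (hn.mul hX.add_one))) ⟨(2 ^ k + 1) * e, ?_⟩
    rw [← mul_assoc (2 ^ k), ← h]; ring
  have hq : 0 < 2 ^ k := by positivity
  generalize 2 ^ k = q at *
  have hr : 0 < r := Nat.pos_of_mul_pos_left hX0
  have h1 : n * r * (q * r + 1) = (q + 1) * e :=
    Nat.eq_of_mul_eq_mul_left hq (by rw [← mul_assoc q (q + 1), ← h]; ring)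
  have hn0 : 0 < n := hn.pos
  have h2 : n * r ≤ e := by
    by_contra h3
    have : q + 1 ≤ q * r + 1 := by nlinarith
    nlinarith
  have h3 : (e : ℤ) - n * r = q * (n * r ^ 2 - e) := by
    have : (n : ℤ) * r * (q * r + 1) = (q + 1) * e := by exact_mod_cast h1
    linarith
  have h4 : (n : ℤ) * r ^ 2 - e = 0 := by
    have a1 : (n : ℤ) * r ≤ e := by exact_mod_cast h2
    have a2 : (e : ℤ) < q := by exact_mod_cast he
    have a3 : (0 : ℤ) < n * r := by positivity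
    by_contra h5
    rcases lt_or_gt_of_ne h5 with h6 | h6 <;> nlinarith
  rw [h4, mul_zero] at h3
  have : (n : ℤ) * r * (r - 1) = 0 := by linarith
  have a3 : (0 : ℤ) < n * r := by positivity
  have : (r : ℤ) = 1 := by
    rcases mul_eq_zero.1 this with h | h <;> omega
  have : r = 1 := by exact_mod_cast this
  rw [this, mul_one]

end Cfsg.Lib.SCS.Num
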