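import Cfsg.Agent.SCS.Pz
import Cfsg.Agent.SCS.Num
import Cfsg.Agent.Bender.Main
import Cfsg.Agent.Inst.BenderCore
import Cfsg.Agent.Inst.S1136
import Cfsg.Agent.CITCor.L2Even
import Cfsg.Agent.CITCor.U3

/-!
# Automizer two: the case `|G| = n X (X + 1)`
-/

set_option autoImplicit false

universe u

namespace Cfsg.Lib.SCS

open Cfsg Subgroup Cfsg.Lib.Char SSC
open scoped ComplexConjugate MatrixGroups

section group

variable {G : Type*} [Group G]

theorem sq_of_orderOf {s : G} (hs : orderOf s = 2) : s * s = 1 := by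
  rw [← pow_two, ← hs, pow_orderOf_eq_one]

theorem exists_not_comm [IsSimpleGroup G] (hG : ¬ IsMulCommutative G) {a : G} (ha : a ≠ 1) :
    ∃ g : G, a * (g * a * g⁻¹) ≠ g * a * g⁻¹ * a := by
  by_contra h
  push Not at h
  have hn : (centralizer {x : G | ∃ g : G, x = g * a * g⁻¹}).Normal := ⟨fun n hn g => by
    rintro _ ⟨k, rfl⟩
    have := hn (g⁻¹ * k * a * (g⁻¹ * k)⁻¹) ⟨_, rfl⟩
    calc k * a * k⁻¹ * (g * n * g⁻¹) = g * (g⁻¹ * k * a * (g⁻¹ * k)⁻¹ * n) * g⁻¹ := by group
      _ = _ := by rw [this]; group⟩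
  rcases hn.eq_bot_or_eq_top with h1 | h1
  · refine ha (mem_bot.1 (h1 ▸ ?_))
    rintro _ ⟨k, rfl⟩
    exact (h k).symm
  · have hz : a ∈ center G := mem_center_iff.2 fun g => by
      have : g ∈ centralizer {x : G | ∃ g : G, x = g * a * g⁻¹} := h1 ▸ mem_top g
      exact (this a ⟨1, by simp⟩).symm
    rw [CITCor.center_eq_bot_of_simple hG] at hz
    exact ha hz

theorem exists_se [Finite G] [IsSimpleGroup G] (hG : ¬ IsMulCommutative G) {n : ℕ}
    (J : G → Finset G) (hJ : ∀ y u, u ∈ J y ↔ u * u = 1 ∧ u ≠ 1 ∧ u * y = y * u)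
    (hn : ∀ y, y ≠ 1 → (J y).Nonempty → (J y).card = n) {t : G} (ht : t * t = 1) (h1 : t ≠ 1) :
    ∃ M : Subgroup G, IsStronglyEmbedded M := by
  have self : ∀ s, s * s = 1 → s ≠ 1 → s ∈ J s := fun s a b => (hJ _ _).2 ⟨a, b, rfl⟩
  have eq_of : ∀ y s, y ≠ 1 → s ≠ 1 → (J y).Nonempty → J y ⊆ J s → J y = J s := fun y s a b c d =>
    Finset.eq_of_subset_of_card_le d (by rw [hn y a c, hn s b (c.mono d)])
  have pw : ∀ (y : G) (k : ℕ), y ^ k * y ^ k = 1 → y ^ k ≠ 1 → J y = J (y ^ k) := fun y k a b =>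
    eq_of _ _ (by rintro rfl; simp at b) b ⟨y ^ k, (hJ _ _).2 ⟨a, b, (Commute.pow_self y k).eq⟩⟩
      fun u hu => (hJ _ _).2 ⟨((hJ _ _).1 hu).1, ((hJ _ _).1 hu).2.1,
        (Commute.pow_right ((hJ _ _).1 hu).2.2 k).eq⟩
  have cm : ∀ u ∈ J t, ∀ v ∈ J t, u * v = v * u := by
    intro u hu v hv
    obtain ⟨u1, u2, u3⟩ := (hJ _ _).1 hu
    obtain ⟨v1, v2, v3⟩ := (hJ _ _).1 hv
    suffices h : u * (u * v) = u * v * u by
      rw [mul_assoc] at h; exact mul_left_cancel h
    rcases Nat.even_or_odd' (orderOf (u * v)) with ⟨k, hk | hk⟩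
    · have hp := orderOf_pos (u * v)
      have a : (u * v) ^ k * (u * v) ^ k = 1 := by rw [← pow_add, ← two_mul, ← hk, pow_orderOf_eq_one]
      have b : (u * v) ^ k ≠ 1 := pow_ne_one_of_lt_orderOf (by omega) (by omega)
      have c : u * (u * v) * u⁻¹ = (u * v)⁻¹ := by
        rw [← mul_assoc, u1, one_mul, mul_inv_rev, inv_eq_of_mul_eq_one_right v1]
      have d : u * (u * v) ^ k = (u * v) ^ k * u := by
        rw [← mul_inv_eq_iff_eq_mul, ← conj_pow, c, inv_pow, inv_eq_of_mul_eq_one_right a]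
      exact ((hJ _ _).1 (pw _ k a b ▸ (hJ _ _).2 ⟨u1, u2, d⟩ : u ∈ J (u * v))).2.2
    · have c : Commute (u * v) t := Commute.mul_left u3 v3
      have e : (u * v * t) ^ (2 * k + 1) = t := by
        rw [c.mul_pow, ← hk, pow_orderOf_eq_one, one_mul, hk, pow_succ, pow_mul, pow_two, ht]; simp
      have := pw (u * v * t) (2 * k + 1) (by rw [e, ht]) (by rw [e]; exact h1)
      rw [e] at this
      have d := ((hJ _ _).1 (this ▸ hu : u ∈ J (u * v * t))).2.2
      rw [mul_assoc (u * v), ← u3, ← mul_assoc, ← mul_assoc (u * v)] at d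
      exact mul_right_cancel d
  have same : ∀ u ∈ J t, J t = J u := fun u hu =>
    eq_of _ _ h1 ((hJ _ _).1 hu).2.1 ⟨u, hu⟩ fun v hv =>
      (hJ _ _).2 ⟨((hJ _ _).1 hv).1, ((hJ _ _).1 hv).2.1, cm v hv u hu⟩
  have cj : ∀ g y u, u ∈ J y ↔ g * u * g⁻¹ ∈ J (g * y * g⁻¹) := fun g y u => by
    simp only [hJ, conj_mul, ne_eq, conj_eq_one_iff, mul_left_inj, mul_right_inj]
  have inM : ∀ w ∈ normalizer (J t : Set G), w * w = 1 → w ≠ 1 → w ∈ J t := by
    intro w hw a b
    have e : w⁻¹ = w := inv_eq_of_mul_eq_one_right a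
    have h2 : w * t * w⁻¹ ∈ J t := (mem_set_normalizer_iff.1 hw t).1 (self t ht h1)
    by_cases h3 : w * t * w⁻¹ = t
    · exact (hJ _ _).2 ⟨a, b, mul_inv_eq_iff_eq_mul.1 h3⟩
    obtain ⟨c1, -, c3⟩ := (hJ _ _).1 h2
    have h4 : t * (w * t * w⁻¹) ∈ J t := (hJ _ _).2 ⟨by
      rw [mul_assoc, ← mul_assoc _ t, c3, mul_assoc t, c1, mul_one, ht], fun h => h3
        (mul_left_cancel (h.trans ht.symm)), by rw [mul_assoc, c3]⟩
    rw [same _ h4]
    refine (hJ _ _).2 ⟨a, b, ?_⟩
    nth_rewrite 2 [← c3]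
    rw [e]
    calc w * (t * (w * t * w)) = w * t * w * t * w := by group
      _ = _ := rfl
  refine ⟨normalizer (J t : Set G), fun h => ?_, ?_, fun g hg => ?_⟩
  · obtain ⟨g, hg⟩ := exists_not_comm hG h1
    exact hg (cm _ (self t ht h1) _ ((mem_set_normalizer_iff.1 (h ▸ mem_top g) t).1 (self t ht h1)))
  · have hm : t ∈ normalizer (J t : Set G) := mem_set_normalizer_iff.2 fun u => by
      have := cj t t u
      rwa [mul_inv_cancel_right] at this
    have : orderOf (⟨t, hm⟩ : normalizer (J t : Set G)) = 2 :=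
      orderOf_eq_prime (Subtype.ext (by simpa [pow_two] using ht)) fun h => h1 (congrArg Subtype.val h)
    exact even_iff_two_dvd.2 (this ▸ orderOf_dvd_natCard _)
  · by_contra h
    obtain ⟨⟨w, hw1, m, hm, rfl⟩, hw⟩ := exists_prime_orderOf_dvd_card' 2
      (even_iff_two_dvd.1 (Nat.not_odd_iff_even.1 h))
    rw [← Subgroup.orderOf_coe] at hw
    simp only [MulEquiv.coe_toMonoidHom, MulAut.conj_apply] at hw hw1
    have a : g * m * g⁻¹ * (g * m * g⁻¹) = 1 := by rw [← pow_two, ← hw, pow_orderOf_eq_one]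
    have b : g * m * g⁻¹ ≠ 1 := fun h => by rw [h, orderOf_one] at hw; omega
    have c1 := inM _ hw1 a b
    have c2 := inM m hm (by rwa [conj_mul, conj_eq_one_iff] at a) (by rwa [ne_eq, conj_eq_one_iff] at b)
    refine hg (mem_set_normalizer_iff.2 fun u => ?_)
    change u ∈ J t ↔ g * u * g⁻¹ ∈ J t
    rw [same _ c2, cj g, ← same _ c1, ← same _ c2]

theorem sq_eq_one_of_isL2Even {G : Type u} [Group G] (h : CITCor.IsL2Even G) {g : G}
    (hg : g ^ 4 = 1) : g ^ 2 = 1 := by
  obtain ⟨F, _, _, n, -, -, h2, -, ⟨e⟩⟩ := h.exists_SL2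
  apply e.injective
  have h4 : (e g) ^ 4 = 1 := by rw [← map_pow, hg, map_one]
  rw [map_pow, map_one]
  generalize e g = x at h4
  have hd := x.det_coe
  rw [Matrix.det_fin_two] at hd
  have e1 : ((x ^ 2 : SL(2, F)) : Matrix (Fin 2) (Fin 2) F) = (x.1 0 0 + x.1 1 1) • x.1 + 1 := by
    ext i j
    fin_cases i <;> fin_cases j <;> simp [pow_two, Matrix.mul_apply, Fin.sum_univ_two]
    · linear_combination -hd - h2
    · ring
    · ring
    · linear_combination -hd - h2
  have e2 : ((x ^ 2 : SL(2, F)) : Matrix (Fin 2) (Fin 2) F) * (x ^ 2 : SL(2, F)) = 1 := by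
    rw [← Matrix.SpecialLinearGroup.coe_mul, ← pow_add, h4]; rfl
  have e3 : x.1 0 0 + x.1 1 1 = 0 := by
    by_contra h0
    rw [e1] at e2
    have a := congrFun (congrFun e2 0) 0
    have b := congrFun (congrFun e2 0) 1
    have d := congrFun (congrFun e2 1) 1
    simp [Matrix.mul_apply, Fin.sum_univ_two, Matrix.one_apply] at a b d
    have : (x.1 0 0 + x.1 1 1) ^ 4 = 0 := by
      linear_combination a + d + 2 * (x.1 0 0 + x.1 1 1) ^ 2 * hd + ((x.1 0 0 + x.1 1 1) ^ 2 -
        (x.1 0 0 + x.1 1 1) ^ 2) * h2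
    exact h0 (pow_eq_zero_iff (by norm_num) |>.1 this)
  ext i j
  rw [e1, e3]; simp

end group

variable {G : Type u} [Group G] [Fintype G]

theorem card_centralizer_of_isConj {s t : G} (h : IsConj s t) :
    Nat.card (centralizer ({t} : Set G)) = Nat.card (centralizer ({s} : Set G)) := by
  obtain ⟨x, rfl⟩ := isConj_iff.1 h
  exact card_centralizer_conj s x

namespace Two

variable {A : Subgroup G} {χ : G → ℂ} {δ : ℤ} {c : G → ℤ} {Θ : Finset (G → ℂ)}
  (D : Two A χ δ c Θ)
include D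

theorem not_cl_of_comm {t y : G} (ht : t * t = 1) (h1 : t ≠ 1) (hy : y * t = t * y) : ¬ Cl A y := by
  rintro ⟨hy1, x, hx⟩
  refine D.not_cl_of_sq ht ⟨h1, x, D.ssc.mem_of_comm hx (conj_ne_one hy1 x) ?_⟩
  rw [conj_mul, conj_mul, hy]

theorem val_of_one (hr : (Nat.card G : ℤ) = Nat.card A * (c 1 * (c 1 + 1))) {g : G} (hg : ¬ Cl A g)
    (h1 : g ≠ 1) : c g = 0 ∨ c g = -1 := by
  classical
  have e := D.sum_off₁
  have hn : (Nat.card A : ℤ) ≠ 0 := by exact_mod_cast Nat.card_pos.ne'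
  rw [hr, mul_right_inj' hn, ← Finset.add_sum_erase _ _ (a := 1) (by simp [not_cl_one]),
    add_eq_left, Finset.sum_eq_zero_iff_of_nonneg fun x _ => by
      rcases (show c x ≤ -1 ∨ 0 ≤ c x by omega) with h | h <;> nlinarith] at e
  have := mul_eq_zero.1 (e g (by simp [hg, h1]))
  omega

variable [IsSimpleGroup G]

theorem odd_index {t : G} (ht : t * t = 1) (h1 : t ≠ 1) : Odd (centralizer ({t} : Set G)).index := by
  have : Fact (Nat.Prime 2) := ⟨Nat.prime_two⟩
  have ho : orderOf t = 2 := orderOf_eq_prime (by rwa [pow_two]) h1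
  obtain ⟨S, hS⟩ := (IsPGroup.of_card (p := 2) (G := zpowers t) (n := 1)
    (by rw [Nat.card_zpowers, ho, pow_one])).exists_le_sylow
  have : Nontrivial S := ⟨⟨⟨t, hS (mem_zpowers t)⟩, 1, fun h => h1 (congrArg Subtype.val h)⟩⟩
  have := S.isPGroup'.center_nontrivial
  obtain ⟨z, hz⟩ := exists_prime_orderOf_dvd_card' (G := center S) 2 (by
    obtain ⟨k, hk⟩ := (S.isPGroup'.to_subgroup (center S)).exists_card_eq
    have h2 : 1 < Nat.card (center S) := Finite.one_lt_card
    rw [hk] at h2 ⊢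
    exact dvd_pow_self 2 (by rintro rfl; simp at h2))
  rw [← Subgroup.orderOf_coe, ← Subgroup.orderOf_coe] at hz
  have hc := D.isConj' ht h1 (v := (z : S)) (sq_of_orderOf hz)
    (fun h => by rw [h, orderOf_one] at hz; omega)
  have hle : (S : Subgroup G) ≤ centralizer ({((z : S) : G)} : Set G) := fun s hs =>
    mem_centralizer_singleton_iff.2 (congrArg Subtype.val (mem_center_iff.1 z.2 ⟨s, hs⟩))
  have e : (centralizer ({t} : Set G)).index = (centralizer ({((z : S) : G)} : Set G)).index :=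
    Nat.eq_of_mul_eq_mul_left (Nat.card_pos (α := centralizer ({t} : Set G)))
      (by rw [card_mul_index, ← card_centralizer_of_isConj hc, card_mul_index])
  rw [e, ← Nat.not_even_iff_odd, even_iff_two_dvd]
  exact fun h => S.not_dvd_index (h.trans (index_dvd_of_le hle))

/-- The case `δ = 1`, `|G| = n X (X + 1)`, `|C(t)| = X`. -/
theorem isBender (hG : ¬ IsMulCommutative G) (hδ : δ = 1) {t : G} (ht : t * t = 1) (h1 : t ≠ 1)
    (hr : (Nat.card G : ℤ) = Nat.card A * (c 1 * (c 1 + 1)))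
    (hC : (Nat.card (centralizer ({t} : Set G)) : ℤ) = c 1) : Bender.IsBender G := by
  classical
  subst hδ
  set H := centralizer ({t} : Set G) with hH
  have := Fintype.ofFinite H
  have hχ : ∀ g, χ g = c g := fun g => by rw [D.hc]; simp
  have hv : ∀ y : H, y ≠ 1 → c y = 0 ∨ c y = -1 := fun y hy => D.val_of_one hr
    (D.not_cl_of_comm ht h1 (mem_centralizer_singleton_iff.1 y.2)) fun h => hy (Subtype.ext h)
  obtain ⟨j, hj⟩ := (D.irr.isCharacter.res H).exists_nat_classInner isCharacter_one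
  have e1 : ∑ y : H, c y = c 1 * j := by
    have := hj
    rw [classInner_one_right, inv_mul_eq_iff_eq_mul₀ (card_ne_zero H)] at this
    simp only [hχ] at this
    rw [← hC]
    exact_mod_cast this
  rw [← Finset.add_sum_erase _ _ (Finset.mem_univ 1), OneMemClass.coe_one] at e1
  have e2 : ∑ y ∈ Finset.univ.erase (1 : H), c y ≤ 0 := Finset.sum_nonpos fun y hy => by
    have := hv y (Finset.mem_erase.1 hy).1; omega
  have e3 : -(c 1 - 1) ≤ ∑ y ∈ Finset.univ.erase (1 : H), c y := by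
    refine le_trans (le_of_eq ?_) (Finset.card_nsmul_le_sum _ _ (-1) fun y hy => by
      have := hv y (Finset.mem_erase.1 hy).1; omega)
    rw [Finset.card_erase_of_mem (Finset.mem_univ _), Finset.card_univ, ← Nat.card_eq_fintype_card,
      nsmul_eq_mul, Nat.cast_sub Nat.card_pos, hC]
    simp
  have hX : 0 < c 1 := by simpa using D.pos
  obtain rfl : j = 1 := by
    have a : (j : ℤ) ≤ 1 := by by_contra h; nlinarith
    have b : (0 : ℤ) < j := by by_contra h; nlinarith
    omega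
  have e4 : ∀ y : H, y ≠ 1 → c y = 0 := fun y hy => by
    have := (Finset.sum_eq_zero_iff_of_nonpos fun y hy => by
      have := hv y (Finset.mem_erase.1 hy).1; omega).1
        (show ∑ y ∈ Finset.univ.erase (1 : H), c y = 0 by push_cast at e1; linarith) y (by simp [hy])
    exact this
  set π := indFun H (fun _ => 1) with hπ
  have c1 : IsCharacter G π := isCharacter_indFun_one H
  have i1 : classInner π (fun _ => 1) = 1 := classInner_indFun_one_one H
  have i2 : classInner π χ = 1 := by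
    rw [c1.isGeneralizedCharacter.classInner_comm D.irr.isGeneralizedCharacter,
      classInner_indFun_right H _ D.irr.isClassFunction, hj, Nat.cast_one]
  have i3 : ∀ θ ∈ Θ, classInner π θ = 2 := fun θ hθ => by
    rw [D.inner_off (fun g hg => indFun_eq_zero_of_not_conj H _ fun x hx => D.not_cl_of_comm ht h1
      (mem_centralizer_singleton_iff.1 hx) (hg.conj x)) hθ, i1, i2]
    norm_num
  have n1 : χ ∉ Θ := fun h => D.θ_ne _ h rfl
  have n2 : (fun _ => 1) ∉ insert χ Θ := by
    rw [Finset.mem_insert]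
    rintro (h | h)
    · exact D.ne_one h.symm
    · exact D.θ_ne_one _ h rfl
  have hn : (Nat.card A : ℂ) = 2 * Θ.card + 1 := by exact_mod_cast D.card.symm
  have sm : ∀ g, ¬ Cl A g → ∑ ξ ∈ insert (fun _ => 1) (insert χ Θ), classInner π ξ * ξ g =
      Nat.card A * (c g + 1) := fun g hg => by
    rw [Finset.sum_insert n2, Finset.sum_insert n1, i1, i2, Finset.sum_congr rfl
      (g := fun _ => 2 * (c g + 1 : ℂ)) (fun θ hθ => by rw [i3 θ hθ, D.off hθ hg]; simp), hχ, hn]
    simp; ring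
  have key := eq_sum_of_degree c1 (insert (fun _ => 1) (insert χ Θ)) (fun ξ hξ => by
    rcases Finset.mem_insert.1 hξ with rfl | hξ
    · exact isIrrCharacter_one
    rcases Finset.mem_insert.1 hξ with rfl | hξ
    · exact D.irr
    · exact D.irrθ _ hξ) (by
      rw [sm 1 (not_cl_one A), hπ, indFun_one, mul_one]
      have : (H.index : ℤ) = Nat.card A * (c 1 + 1) := mul_left_cancel₀ hX.ne' (by
        rw [← hC, ← Nat.cast_mul, card_mul_index, hr, hC]; ring)
      exact_mod_cast this)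
  let J : G → Finset G := fun y => Finset.univ.filter fun u => u * u = 1 ∧ u ≠ 1 ∧ u * y = y * u
  have hJ : ∀ y, π y = (J y).card := fun y => by
    refine mul_left_cancel₀ (card_ne_zero H) ?_
    have e := sum_conj_eq (fun u => if u * y = y * u then (1 : ℂ) else 0) t
    rw [Finset.sum_boole, Finset.sum_boole, Finset.filter_filter] at e
    rw [card_mul_indFun_one, Nat.card_eq_fintype_card (α := {x : G // x⁻¹ * y * x ∈ H}),
      Fintype.card_subtype]
    refine Eq.trans ?_ (e.trans ?_)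
    · congr 2
      ext x
      simp only [Finset.mem_filter, Finset.mem_univ, true_and, hH, mem_centralizer_singleton_iff]
      constructor
      · intro h
        calc x * t * x⁻¹ * y = x * (t * (x⁻¹ * y * x)) * x⁻¹ := by group
          _ = _ := by rw [← h]; group
      · intro h
        calc x⁻¹ * y * x * t = x⁻¹ * (y * (x * t * x⁻¹)) * x := by group
          _ = _ := by rw [← h]; group
    · congr 3
      ext v
      simp only [J, Finset.mem_filter, Finset.mem_univ, true_and]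
      refine ⟨fun h => ⟨mul_self_eq_one_of_isConj ht h.1, ?_, h.2⟩,
        fun h => ⟨D.isConj' ht h1 h.1 h.2.1, h.2.2⟩⟩
      rintro rfl
      exact h1 (isConj_one_right.1 h.1.symm)
  obtain ⟨M, hM⟩ := exists_se hG (n := Nat.card A) J (by simp [J]) (fun y hy ⟨v, hv⟩ => by
    obtain ⟨-, v1, v2, v3⟩ := Finset.mem_filter.1 hv
    obtain ⟨x, hx⟩ := isConj_iff.1 (D.isConj' v1 v2 ht h1)
    have hm : x * y * x⁻¹ ∈ H := mem_centralizer_singleton_iff.2 (by
      rw [← hx, conj_mul, conj_mul, v3])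
    have := e4 ⟨_, hm⟩ fun h => conj_ne_one hy x (congrArg Subtype.val h)
    simp only [D.c_conj] at this
    have e := key y
    rw [hJ, sm y (D.not_cl_of_comm v1 v2 v3.symm), this] at e
    simpa using e) ht h1
  exact ((Bender.core_of_gate G).simple (Local.isStronglyEmbedded_iff_se.1 hM)).1

theorem l2_or_suzuki (hG : ¬ IsMulCommutative G) (hδ : δ = 1) {t : G} (ht : t * t = 1) (h1 : t ≠ 1)
    (hr : (Nat.card G : ℤ) = Nat.card A * (c 1 * (c 1 + 1)))
    (hC : (Nat.card (centralizer ({t} : Set G)) : ℤ) = c 1) :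
    CITCor.IsL2Even G ∨ Cfsg.Lie.IsoSuzuki G := by
  have hB := D.isBender hG hδ ht h1 hr hC
  obtain ⟨k, e, -, -, he, hk⟩ := hB.exists_card
  rcases hB with h | h | ⟨F, _, _, n, hn, hF, ⟨f⟩⟩
  · exact Or.inl h
  · exact Or.inr h
  exfalso
  have ho : orderOf (⟨t, mem_centralizer_singleton_iff.2 rfl⟩ : centralizer ({t} : Set G)) = 2 :=
    orderOf_eq_prime (Subtype.ext (by simpa [pow_two] using ht)) fun h => h1 (congrArg Subtype.val h)
  have h2 := Num.numS D.odd (X := Nat.card (centralizer ({t} : Set G)))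
    (even_iff_two_dvd.2 (ho ▸ orderOf_dvd_natCard _)) Nat.card_pos he (by
      rw [← hk]
      rw [← hC] at hr
      exact_mod_cast hr.symm)
  obtain ⟨s, x, hs, hx1, hx, hc⟩ := CITCor.psu3_exists_commute hn hF
  have a : f.symm s * f.symm s = 1 := by rw [← map_mul, sq_of_orderOf hs, map_one]
  have b : f.symm s ≠ 1 := fun h => by
    rw [map_eq_one_iff _ f.symm.injective] at h
    rw [h, orderOf_one] at hs; omega
  rw [← card_centralizer_of_isConj (D.isConj' ht h1 a b)] at h2
  have d := orderOf_dvd_natCard (⟨f.symm x, mem_centralizer_singleton_iff.2 (by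
    rw [← map_mul, ← hc, map_mul])⟩ : centralizer ({f.symm s} : Set G))
  rw [h2, ← Subgroup.orderOf_coe, MulEquiv.orderOf_eq] at d
  exact hx1 (orderOf_eq_one_iff.1 (Nat.Coprime.eq_one_of_dvd
    (Nat.Coprime.pow_right k (Nat.coprime_two_right.2 hx)) d))

end Two

end Cfsg.Lib.SCS
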