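import Cfsg.Agent.SCS.Four
import Cfsg.Agent.SCS.One

/-!
# Self-centralization systems of type (2, 4, 4)
-/

set_option autoImplicit false

universe u

namespace Cfsg.Lib.SCS

open Cfsg Subgroup Cfsg.Lib.Char SSC
open scoped ComplexConjugate

theorem numC {n p q k x c g R I KA KB KC PA PB PC : ℤ} (a1 : 9 ≤ p) (a2 : 9 ≤ q) (a3 : 5 ≤ n)
    (hk : 1 ≤ k) (hc : 0 ≤ c) (hx : x = p * q * k + 1) (hG : g = x * (n * (p * q)) * k)
    (hord : g ≤ 3 * n ^ 2 * p ^ 2 * q ^ 2) (s1 : -x * 1 + KA - KB - KC - x * (n * (p * q)) * c = 0)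
    (s2 : 2 * n * KA = g * (n - 1)) (s3 : 4 * p * KB = g * (p - 1)) (s4 : 4 * q * KC = g * (q - 1))
    (q0 : -x * I + PA - PB - PC - R = 0) (q1 : 2 * PA = g * (n - 1)) (q2 : 4 * PB = g * (p - 1))
    (q3 : 4 * PC = g * (q - 1)) (q4 : R ≤ k * (x * (n * (p * q)) * c)) (q5 : 0 ≤ R)
    (q6 : x * I = g) : False := by
  have h4 : (0 : ℤ) < p * q := by positivity
  have hx0 : 0 < x := by rw [hx]; positivity
  have g0 : 0 < g := by rw [hG]; positivity
  have E1 : 4 * c * n * (p * q) = k * n * (p + q) - 2 * k * (p * q) - 4 := by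
    refine mul_left_cancel₀ (show (x * (n * p * q) : ℤ) ≠ 0 by positivity) ?_
    rw [hG] at s2 s3 s4
    linear_combination -4 * n * p * q * s1 + 2 * p * q * s2 - n * q * s3 - n * p * s4
  have E2 : 4 * R = g * (2 * n - 4 - p - q) := by
    linear_combination -4 * q0 - 4 * q6 + 2 * q1 - q2 - q3
  have E3 : 0 ≤ 2 * n - 4 - p - q := nonneg_of_mul_nonneg_right (E2 ▸ by linarith) g0 |>.trans le_rfl
  have E4 : 2 * n - 4 - p - q ≤ 4 * c := by
    have : 4 * R ≤ g * (4 * c) := by rw [hG]; linarith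
    exact le_of_mul_le_mul_left (E2 ▸ this) g0
  have E5 : k ^ 2 < 3 * n := by
    have h1 : x * k * (n * (p * q)) ≤ 3 * n * (p * q) * (n * (p * q)) := by
      rw [hG] at hord; linarith
    have h2 := le_of_mul_le_mul_right h1 (by positivity)
    rw [hx] at h2
    exact lt_of_mul_lt_mul_right (a := p * q) (by linarith) h4.le
  rcases le_total p q with h | h
  · exact Num.numB a1 h hk hc E1 (by ring) E3 E4 E5
  · exact Num.numB a2 h hk hc (by linear_combination E1) (by ring) E3 E4 E5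

variable {G : Type u} [Group G] [Fintype G]

namespace Two

variable {A B B' : Subgroup G} {χ : G → ℂ} {δ : ℤ} {c : G → ℤ} {Θ : Finset (G → ℂ)}
  (D : Two A χ δ c Θ) [IsSimpleGroup G] (F : Four A B) (F' : Four A B')
  (hd : ∀ g, Cl B g → ¬ Cl B' g)
  (hord : Nat.card G ≤ 3 * Nat.card A ^ 2 * Nat.card B ^ 2 * Nat.card B' ^ 2)
include D F F' hd

theorem N_dvd : (Nat.card B * Nat.card B' : ℤ) ∣ c 1 + 1 :=
  (Nat.isCoprime_iff_coprime.2 (F.ssc.coprime_card F'.ssc hd)).mul_dvd (D.caseA F F' hd).2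
    (D.caseA F' F fun g h1 h2 => hd g h2 h1).2

include hord

theorem order_eq {t : G} (ht : t * t = 1) (h1 : t ≠ 1) :
    (Nat.card G : ℤ) = Nat.card A * (c 1 * (c 1 + 1)) ∧ c t = 0 ∧
      (Nat.card (centralizer ({t} : Set G)) : ℤ) = |c 1| := by
  obtain ⟨r, hr0, e1, e2, e3⟩ := D.exists_r ht h1
  have hN := D.N_dvd F F' hd
  have k1 := Nat.isCoprime_iff_coprime.2 (D.ssc.coprime_centralizer h1 (D.not_cl_of_sq ht))
  have k2 := Nat.isCoprime_iff_coprime.2 (F.ssc.coprime_centralizer h1 (F.not_cl_of_sq ht))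
  have k3 := Nat.isCoprime_iff_coprime.2 (F'.ssc.coprime_centralizer h1 (F'.not_cl_of_sq ht))
  have a1 : (9 : ℤ) ≤ Nat.card B := by exact_mod_cast F.nine
  have a2 : (9 : ℤ) ≤ Nat.card B' := by exact_mod_cast F'.nine
  have a3 : (5 : ℤ) ≤ Nat.card A := by exact_mod_cast D.five
  by_cases hr : r = 1
  · subst hr
    rw [one_pow, one_mul] at e1
    rw [one_mul] at e2
    rcases D.val_of_one e1 (D.not_cl_of_sq ht) h1 with h | h
    · exact ⟨e1, h, by rw [e2, h, sub_zero]⟩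
    · exfalso
      rw [e2, h, sub_neg_eq_add] at k2
      have := k2.isUnit_of_dvd' ((dvd_abs _ _).2 (D.caseA F F' hd).2) dvd_rfl
      rw [Int.isUnit_iff] at this
      omega
  exfalso
  have ho : Odd (Nat.card A : ℤ) := by exact_mod_cast D.odd
  have a4 : (81 : ℤ) ≤ Nat.card B * Nat.card B' := by nlinarith
  obtain ⟨f1, f2⟩ := Num.numA1 a3 ho a4 hN D.X_ne' hr0 hr e3 (by
    rw [← e1, mul_pow, ← mul_assoc]; exact_mod_cast hord)
  have f3 : Even r := by
    rw [← Int.even_pow' two_ne_zero]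
    rcases f2 with h | h <;> rw [h]
    · exact ho.add_one
    · exact (Odd.mul (by decide) ho).add_one
  have f4 : |c 1 - c t| * (centralizer ({t} : Set G)).index = r * c 1 * (Nat.card A * (c 1 + 1)) :=
    mul_left_cancel₀ hr0.ne' (by rw [← mul_assoc, ← e2, ← Nat.cast_mul, card_mul_index, e1]; ring)
  have f5 : c t ≠ 0 := fun h => by
    have ho2 : Odd ((centralizer ({t} : Set G)).index : ℤ) := by exact_mod_cast D.odd_index ht h1
    rw [h, sub_zero] at f4
    refine Int.not_even_iff_odd.2 ho2 ?_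
    rcases abs_cases (c 1) with ⟨e, -⟩ | ⟨e, -⟩ <;> rw [e] at f4
    · rw [mul_left_cancel₀ D.X_ne (f4.trans (show _ = c 1 * (r * (Nat.card A * (c 1 + 1))) by ring))]
      exact f3.mul_right _
    · rw [mul_left_cancel₀ (neg_ne_zero.2 D.X_ne)
        (f4.trans (show _ = -c 1 * (r * -(Nat.card A * (c 1 + 1))) by ring))]
      exact f3.mul_right _
  rw [e2] at k1 k2 k3
  have f6 : |c 1 - c t| ∣ r * c 1 := by
    refine IsCoprime.dvd_of_dvd_mul_right (IsCoprime.mul_right k1.of_mul_left_right ?_)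
      (Dvd.intro _ f4)
    rw [← IsCoprime.abs_right_iff, f1]
    exact IsCoprime.mul_right k2.of_mul_left_right k3.of_mul_left_right
  have f7 : |c 1 - c t| ≤ r * |c t| := by
    refine Int.le_of_dvd (mul_pos hr0 (abs_pos.2 f5)) ?_
    rw [← abs_of_pos hr0, ← abs_mul, dvd_abs, abs_dvd, show r * c t = r * c 1 - r * (c 1 - c t) by ring]
    exact dvd_sub ((abs_dvd _ _).1 f6) (dvd_mul_left _ _)
  have f8 := D.column (D.not_cl_of_sq ht)
  refine Num.numA2 a3 (f1 ▸ a4) ?_ hr0 f2 D.modEq f7 (by rw [← e2]; nlinarith [sq_nonneg (c t)])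
  rw [f1]
  have b1 := F.mod_four
  have b2 := F'.mod_four
  have : Nat.card B * Nat.card B' % 4 = 1 := by rw [Nat.mul_mod, b1, b2]
  exact_mod_cast this

theorem delta_eq : δ = 1 := by
  classical
  refine D.hδ.resolve_right fun hδ => ?_
  subst hδ
  obtain ⟨t, ht⟩ := F.exists_inv
  obtain ⟨e1, e2, e3⟩ := D.order_eq F F' hd hord ht.sq ht.ne_one
  obtain ⟨k', hk'⟩ := D.N_dvd F F' hd
  have v1 := (D.caseA F F' hd).1
  have v2 := (D.caseA F' F fun g h1 h2 => hd g h2 h1).1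
  have a1 : (9 : ℤ) ≤ Nat.card B := by exact_mod_cast F.nine
  have a2 : (9 : ℤ) ≤ Nat.card B' := by exact_mod_cast F'.nine
  have a3 : (5 : ℤ) ≤ Nat.card A := by exact_mod_cast D.five
  have p1 := D.pos'
  obtain ⟨k, rfl⟩ : ∃ k : ℕ, k' = -k := ⟨(-k').toNat, by
    rw [Int.toNat_of_nonneg, neg_neg]
    by_contra h
    have : 0 < (Nat.card B * Nat.card B' : ℤ) * k' := mul_pos (by positivity) (by omega)
    omega⟩
  have hk : 1 ≤ k := by
    by_contra h
    obtain rfl : k = 0 := by omega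
    simp at hk'; omega
  obtain ⟨x, hx⟩ : ∃ x : ℕ, c 1 = -x := ⟨(-c 1).toNat, by omega⟩
  have hx0 : (0 : ℤ) < x := by omega
  have hG : Nat.card G = x * (Nat.card A * (Nat.card B * Nat.card B')) * k := by
    rw [hk', hx] at e1
    have : (Nat.card G : ℤ) = x * (Nat.card A * (Nat.card B * Nat.card B')) * k := by rw [e1]; ring
    exact_mod_cast this
  let Z : Finset G := Finset.univ.filter fun g => g ≠ 1 ∧ ¬ Cl A g ∧ ¬ Cl B g ∧ ¬ Cl B' g ∧ c g = -1
  have hZ : ∀ y ∈ Z, Nat.card (centralizer ({y} : Set G)) ∣ k := fun y hy => by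
    obtain ⟨-, y1, y2, y3, y4, y5⟩ := Finset.mem_filter.1 hy
    have i := irr_isIntegral_index_mul_div D.irr y
    rw [D.hc, D.hc, y5, hx] at i
    obtain ⟨j, hj⟩ := dvd_of_isIntegral_div (a := (centralizer ({y} : Set G)).index) (b := x)
      (by omega) (by simpa using i)
    refine (Nat.Coprime.mul_right (D.ssc.coprime_centralizer y1 y2) (Nat.Coprime.mul_right
      (F.ssc.coprime_centralizer y1 y3) (F'.ssc.coprime_centralizer y1 y4))).dvd_of_dvd_mul_left
      ⟨j, Nat.eq_of_mul_eq_mul_left (show 0 < x by omega) ?_⟩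
    rw [← mul_assoc, ← hG, ← (centralizer ({y} : Set G)).card_mul_index, hj]; ring
  obtain ⟨c', hc'⟩ := dvd_card_of_conj Z (d := x * (Nat.card A * (Nat.card B * Nat.card B')))
    (fun s hs g => by
      simp only [Z, Finset.mem_filter, Finset.mem_univ, true_and, cl_conj_iff, D.c_conj] at hs ⊢
      exact ⟨conj_ne_one hs.1 g, hs.2⟩)
    (fun s hs => by
      obtain ⟨j, hj⟩ := hZ s hs
      exact ⟨j, Nat.eq_of_mul_eq_mul_left (Nat.card_pos (α := centralizer ({s} : Set G)))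
        (by rw [card_mul_index, hG, hj]; ring)⟩)
  have dec : ∀ g, c g = c 1 * (if g = 1 then 1 else 0) + (if Cl A g then 1 else 0) -
      (if Cl B g then 1 else 0) - (if Cl B' g then 1 else 0) - (if g ∈ Z then 1 else 0) := by
    intro g
    by_cases g1 : g = 1
    · simp [g1, not_cl_one, Z]
    by_cases g2 : Cl A g
    · simp [g1, g2, F.disj g g2, F'.disj g g2, Z, D.on g g2]
    by_cases g3 : Cl B g
    · simp [g1, g2, g3, hd g g3, Z, v1 g g3]
    by_cases g4 : Cl B' g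
    · simp [g1, g2, g3, g4, Z, v2 g g4]
    rcases D.val_of_one e1 g2 g1 with h | h <;> simp [g1, g2, g3, g4, Z, h]
  have s1 := D.sum_c
  rw [Finset.sum_congr rfl fun g _ => dec g] at s1
  simp only [Finset.sum_sub_distrib, Finset.sum_add_distrib, Finset.sum_boole, ← Finset.mul_sum,
    Finset.filter_mem_eq_inter, Finset.univ_inter, hc'] at s1
  have z : ∀ i : DecidablePred fun x : G => x = 1, (Finset.univ.filter fun x : G => x = 1).card = 1 :=
    fun i => Finset.card_eq_one.2 ⟨1, by ext; simp⟩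
  rw [z] at s1
  have s2 := card_cl' D.ssc
  rw [D.idx] at s2
  have s3 := F.card_cl
  have s4 := F'.card_cl
  have q0 : pz t c = 0 := by
    have := D.pairSum_c t t
    rw [e2, ← cast_pz] at this
    have h0 : (c 1 : ℂ) ≠ 0 := by exact_mod_cast D.X_ne
    simpa [h0] using this
  rw [funext dec, pz_sub, pz_sub, pz_sub, pz_add, pz_mul, pz_delta ht.sq] at q0
  have q1 := D.pz_clA ht.sq ht.ne_one
  have q2 := D.pz_clB F ht.sq ht.ne_one
  have q3 := D.pz_clB F' ht.sq ht.ne_one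
  have q4 := pz_le ht.sq Z (k := k) fun y hy => by exact_mod_cast Nat.le_of_dvd hk (hZ y hy)
  have q5 : pz t (fun _ => 0) ≤ pz t fun g => if g ∈ Z then 1 else 0 :=
    pz_mono t fun g => by split_ifs <;> norm_num
  rw [show pz t (fun _ => 0) = 0 by simp [pz]] at q5
  have q6 : (x : ℤ) * (centralizer ({t} : Set G)).index = Nat.card G := by
    rw [← (centralizer ({t} : Set G)).card_mul_index, Nat.cast_mul, e3, hx, abs_neg, abs_of_pos hx0]
  have hG' : (Nat.card G : ℤ) = x * (Nat.card A * (Nat.card B * Nat.card B')) * k := by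
    exact_mod_cast hG
  have hord' : (Nat.card G : ℤ) ≤ 3 * Nat.card A ^ 2 * Nat.card B ^ 2 * Nat.card B' ^ 2 := by
    exact_mod_cast hord
  rw [hc'] at q4
  push_cast at s1 s2 q4
  rw [hx] at s1 q0 hk'
  exact numC a1 a2 a3 (by exact_mod_cast hk) (by positivity) (by linarith) hG' hord' s1 s2 s3 s4
    q0 q1 q2 q3 q4 q5 q6

theorem isoSuzuki (hG : ¬ IsMulCommutative G) : Cfsg.Lie.IsoSuzuki G := by
  have hδ := D.delta_eq F F' hd hord
  obtain ⟨t, ht⟩ := F.exists_inv
  obtain ⟨e1, -, e3⟩ := D.order_eq F F' hd hord ht.sq ht.ne_one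
  have hX : 0 < c 1 := by simpa [hδ] using D.pos
  refine (D.l2_or_suzuki hG hδ ht.sq ht.ne_one e1 (by rw [e3, abs_of_pos hX])).resolve_left fun h => ?_
  obtain ⟨g, h1, h2⟩ := F.ssc.exists_order_four (F.idx ▸ dvd_rfl) F.ne_bot
  exact h2 (sq_eq_one_of_isL2Even h h1)

end Two

end Cfsg.Lib.SCS
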