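import Cfsg.Agent.SCS.Pz

/-!
# A second strongly self-centralizing subgroup with automizer of order four
-/

set_option autoImplicit false

namespace Cfsg.Lib.SCS

open Cfsg Subgroup Cfsg.Lib.Char SSC
open scoped ComplexConjugate

variable {G : Type*} [Group G] [Fintype G]

/-- `B` is strongly self-centralizing with automizer four, not conjugate to `A`. -/
structure Four (A B : Subgroup G) : Prop where
  ssc : SSC B
  idx : B.relIndex (normalizer (B : Set G)) = 4
  big : 5 < Nat.card B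
  disj : ∀ g, Cl A g → ¬ Cl B g

namespace Four

variable {A B : Subgroup G} (F : Four A B)
include F

theorem mod_four : Nat.card B % 4 = 1 := by
  have := F.ssc.relIndex_dvd
  rw [F.idx] at this
  have := F.big
  omega

theorem nine : 9 ≤ Nat.card B := by have := F.mod_four; have := F.big; omega

theorem odd : Odd (Nat.card B) := by have := F.mod_four; rw [Nat.odd_iff]; omega

theorem ne_bot : B ≠ ⊥ := fun h => by have := F.big; simp [h] at this

theorem exists_inv : ∃ s, Inv B s := F.ssc.exists_inv (by rw [F.idx]; norm_num)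

open Classical in
theorem card_cl : 4 * (Nat.card B : ℤ) * (Finset.univ.filter (Cl B)).card =
    Nat.card G * (Nat.card B - 1) := by
  have := Two.card_cl' F.ssc
  rwa [F.idx] at this

open Classical in
theorem card_cl_ge : 2 * (Nat.card G : ℤ) ≤ 9 * (Finset.univ.filter (Cl B)).card := by
  have h1 := F.card_cl
  have h2 : (9 : ℤ) ≤ Nat.card B := by exact_mod_cast F.nine
  have h3 : (0 : ℤ) ≤ Nat.card G := by positivity
  by_contra h
  nlinarith

theorem not_cl_of_sq {u : G} (hu : u * u = 1) : ¬ Cl B u := by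
  rintro ⟨h1, x, hx⟩
  refine conj_ne_one h1 x (eq_one_of_sq F.odd hx ?_)
  calc x * u * x⁻¹ * (x * u * x⁻¹) = x * (u * u) * x⁻¹ := by group
    _ = 1 := by rw [hu]; group

end Four

namespace Two

variable {A B B' : Subgroup G} {χ : G → ℂ} {δ : ℤ} {c : G → ℤ} {Θ : Finset (G → ℂ)}
  (D : Two A χ δ c Θ)
include D

omit D in
open Classical in
theorem le_sum_off (F : Four A B) {z : ℤ} (hz : ∀ g, Cl B g → c g = z) (w : ℤ → ℤ)
    (hw : ∀ x, 0 ≤ w x) : w (c 1) + (Finset.univ.filter (Cl B)).card * w z ≤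
      ∑ g ∈ Finset.univ.filter (fun g => ¬ Cl A g), w (c g) := by
  refine le_trans (le_of_eq ?_) (Finset.sum_le_sum_of_subset_of_nonneg
    (s := insert 1 (Finset.univ.filter (Cl B))) (fun g hg => ?_) fun _ _ _ => hw _)
  · rw [Finset.sum_insert (by simp [not_cl_one]), Finset.sum_congr rfl (g := fun _ => w z)
      (fun g hg => by rw [hz g (Finset.mem_filter.1 hg).2])]
    simp
  · rcases Finset.mem_insert.1 hg with rfl | hg
    · simp [not_cl_one]
    · exact Finset.mem_filter.2 ⟨Finset.mem_univ _, fun h => F.disj g h (Finset.mem_filter.1 hg).2⟩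

theorem val (F : Four A B) : ∃ z : ℤ, (z = 0 ∨ z = -1) ∧ (∀ g, Cl B g → c g = z) ∧
    (Nat.card B : ℤ) ∣ c 1 - z := by
  classical
  obtain ⟨z, h1, h2⟩ := D.exists_const F.ssc F.disj F.ne_bot
  refine ⟨z, ?_, h1, h2⟩
  have e1 := le_sum_off F h1 (fun x => x * (x + 1)) fun x => by
    rcases (show x ≤ -1 ∨ 0 ≤ x by omega) with h | h <;> nlinarith
  have e2 := D.sum_off₁
  have e3 := F.card_cl_ge
  have e4 := D.XX_pos
  have e5 : (5 : ℤ) ≤ Nat.card A := by exact_mod_cast D.five
  have e6 : (0 : ℤ) < Nat.card G := by exact_mod_cast Nat.card_pos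
  by_contra h
  have e7 : 2 ≤ z * (z + 1) := by
    rcases (show z ≤ -2 ∨ 1 ≤ z by omega) with h | h <;> nlinarith
  generalize ((Finset.univ.filter (Cl B)).card : ℤ) = K at *
  generalize ∑ g ∈ Finset.univ.filter (fun g => ¬ Cl A g), c g * (c g + 1) = S at *
  have : K * 2 ≤ K * (z * (z + 1)) := by gcongr; omega
  nlinarith

theorem card_of_zero (F : Four A B) (hz : ∀ g, Cl B g → c g = 0) :
    Nat.card A = 5 ∨ Nat.card A = 7 := by
  classical
  have e1 := le_sum_off F hz (fun x => (x + 1) ^ 2) fun x => sq_nonneg _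
  have e2 := D.sum_off₂
  have e3 := F.card_cl_ge
  have e4 : 0 < (c 1 + 1) ^ 2 := by have := D.X_ne'; positivity
  have e5 := D.five
  have e6 : (0 : ℤ) < Nat.card G := by exact_mod_cast Nat.card_pos
  have e7 := Nat.odd_iff.1 D.odd
  have : (Nat.card A : ℤ) < 9 := by
    by_contra h
    generalize ((Finset.univ.filter (Cl B)).card : ℤ) = K at *
    generalize ∑ g ∈ Finset.univ.filter (fun g => ¬ Cl A g), (c g + 1) ^ 2 = S at *
    nlinarith
  omega

theorem not_both_zero (F : Four A B) (F' : Four A B') (hd : ∀ g, Cl B g → ¬ Cl B' g)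
    (hz : ∀ g, Cl B g → c g = 0) (hz' : ∀ g, Cl B' g → c g = 0) : False := by
  classical
  have e1 : ((Finset.univ.filter (Cl B)).card : ℤ) + (Finset.univ.filter (Cl B')).card ≤
      ∑ g ∈ Finset.univ.filter (fun g => ¬ Cl A g), (c g + 1) ^ 2 := by
    refine le_trans (le_of_eq ?_) (Finset.sum_le_sum_of_subset_of_nonneg
      (s := Finset.univ.filter (Cl B) ∪ Finset.univ.filter (Cl B')) (fun g hg => ?_)
      fun _ _ _ => sq_nonneg _)
    · rw [Finset.sum_union (Finset.disjoint_filter.2 fun g _ => hd g),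
        Finset.sum_congr rfl (g := fun _ => 1) (fun g hg => by rw [hz g (Finset.mem_filter.1 hg).2]; rfl),
        Finset.sum_congr rfl (s₁ := Finset.univ.filter (Cl B')) (g := fun _ => 1)
          (fun g hg => by rw [hz' g (Finset.mem_filter.1 hg).2]; rfl)]
      simp
    · refine Finset.mem_filter.2 ⟨Finset.mem_univ _, fun h => ?_⟩
      rcases Finset.mem_union.1 hg with hg | hg
      · exact F.disj g h (Finset.mem_filter.1 hg).2
      · exact F'.disj g h (Finset.mem_filter.1 hg).2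
  have e2 := D.sum_off₂
  have e3 := F.card_cl_ge
  have e4 := F'.card_cl_ge
  have e5 : (5 : ℤ) ≤ Nat.card A := by exact_mod_cast D.five
  have e6 : (0 : ℤ) < Nat.card G := by exact_mod_cast Nat.card_pos
  generalize ((Finset.univ.filter (Cl B)).card : ℤ) = K at *
  generalize ((Finset.univ.filter (Cl B')).card : ℤ) = K' at *
  generalize ∑ g ∈ Finset.univ.filter (fun g => ¬ Cl A g), (c g + 1) ^ 2 = S at *
  nlinarith

variable [IsSimpleGroup G]

theorem index_formula {t : G} (ht : t * t = 1) (h1 : t ≠ 1) :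
    ((centralizer ({t} : Set G)).index : ℤ) ^ 2 * (c 1 - c t) ^ 2 =
      c 1 * (c 1 + 1) * (Nat.card G * Nat.card A) := by
  obtain ⟨s, hs⟩ := D.ssc.exists_inv (D.idx ▸ dvd_rfl)
  have e := D.pair_formula hs ht ht
  rw [if_pos ⟨D.isConj hs ht h1, D.isConj hs ht h1⟩] at e
  linear_combination e

open Classical in
theorem pz_clA {t : G} (ht : t * t = 1) (h1 : t ≠ 1) :
    2 * pz t (fun g => if Cl A g then 1 else 0) = Nat.card G * (Nat.card A - 1) := by
  obtain ⟨s, hs⟩ := D.ssc.exists_inv (D.idx ▸ dvd_rfl)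
  have := D.ssc.pz_cl D.odd hs (D.isConj hs ht h1)
  rwa [D.idx] at this

open Classical in
theorem pz_clB (F : Four A B) {t : G} (ht : t * t = 1) (h1 : t ≠ 1) :
    4 * pz t (fun g => if Cl B g then 1 else 0) = Nat.card G * (Nat.card B - 1) := by
  obtain ⟨s, hs⟩ := F.exists_inv
  have := F.ssc.pz_cl F.odd hs (D.isConj' hs.sq hs.ne_one ht h1)
  rwa [F.idx] at this

theorem not_five (F : Four A B) (F' : Four A B') (hd : ∀ g, Cl B g → ¬ Cl B' g)
    (hz : ∀ g, Cl B g → c g = 0) (h1 : (Nat.card B : ℤ) ∣ c 1) (h2 : (Nat.card B' : ℤ) ∣ c 1 + 1)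
    (h5 : Nat.card A = 5) : False := by
  classical
  obtain ⟨s, hs⟩ := F.exists_inv
  have e1 := D.index_formula hs.sq hs.ne_one
  have e2 := D.pz_clA hs.sq hs.ne_one
  have e3 := D.pz_clB F hs.sq hs.ne_one
  have e4 := D.pz_clB F' hs.sq hs.ne_one
  have e5 : pz s (fun g => (if Cl A g then 1 else 0) + (if Cl B g then 1 else 0) +
      (if Cl B' g then 1 else 0)) ≤ pz s fun _ => 1 := pz_mono s fun g => by
    have := F.disj g
    have := F'.disj g
    have := hd g
    split_ifs <;> simp_all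
  rw [pz_add, pz_add, pz_one] at e5
  have e6 : (22 : ℤ) ≤ Nat.card B + Nat.card B' := by
    have a1 := F.nine
    have a2 := F'.nine
    have a3 := F.mod_four
    have a4 := F'.mod_four
    have a5 := F.ssc.coprime_card F'.ssc hd
    have : ¬ (Nat.card B = 9 ∧ Nat.card B' = 9) := fun h => by
      rw [h.1, h.2] at a5; norm_num at a5
    omega
  have e7 : (0 : ℤ) < Nat.card G := by exact_mod_cast Nat.card_pos
  rw [h5] at e1 e2
  have e8 : 7 * (Nat.card G : ℤ) ≤ ((centralizer ({s} : Set G)).index : ℤ) ^ 2 := by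
    push_cast at e2; nlinarith
  have e9 : 7 * (c 1 - c s) ^ 2 ≤ 5 * (c 1 * (c 1 + 1)) := by
    push_cast at e1
    by_contra h
    nlinarith [sq_nonneg (c 1 - c s)]
  obtain ⟨k, hk⟩ := dihedral_bound F.odd hs D.irr.isCharacter fun b hb hb1 => by
    rw [D.hc, hz b (cl_of_mem hb hb1)]; simp
  rw [D.hc, D.hc] at hk
  have e10 : δ * c 1 - Nat.card B * (δ * c s) = k := by exact_mod_cast hk
  have a1 : (9 : ℤ) ≤ Nat.card B := by exact_mod_cast F.nine
  have a2 : (9 : ℤ) ≤ Nat.card B' := by exact_mod_cast F'.nine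
  have a3 := Int.le_of_dvd (abs_pos.2 D.X_ne) ((dvd_abs _ _).2 h1)
  have a4 := Int.le_of_dvd (abs_pos.2 D.X_ne') ((dvd_abs _ _).2 h2)
  have a5 : c 1 ≠ 9 := fun h => by
    rw [h] at h2 a4
    have := F'.mod_four
    have : Nat.card B' = 9 := by rw [abs_of_pos (by norm_num)] at a4; omega
    rw [this] at h2; norm_num at h2
  have p1 := D.pos
  rcases D.hδ with rfl | rfl
  · have b1 : 10 ≤ c 1 := by rw [abs_of_pos (by omega)] at a3; omega
    have b2 : 9 * c s ≤ c 1 := by
      by_contra h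
      nlinarith
    nlinarith
  · have b1 : c 1 ≤ -10 := by rw [abs_of_neg (by have := D.pos'; omega)] at a4; omega
    have b2 : c 1 ≤ 9 * c s := by
      by_contra h
      nlinarith
    nlinarith

theorem not_seven (F : Four A B) (hz : ∀ g, Cl B g → c g = 0) (h1 : (Nat.card B : ℤ) ∣ c 1)
    (h7 : Nat.card A = 7) : False := by
  classical
  have := Fintype.ofFinite B
  obtain ⟨s, hs⟩ := F.exists_inv
  obtain ⟨⟨b, hb⟩, hb1⟩ := ne_bot_iff_exists_ne_one.1 F.ne_bot
  obtain ⟨mu, hm⟩ := exists_monoidHom_apply_ne_one_of_comm F.ssc.comm' hb1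
  have hm : mu ≠ 1 := fun h => hm (by rw [h]; rfl)
  have hk : Θ.card = 3 := by have := D.card; omega
  set α := indFun B (df 1 mu) with hα
  have hg : IsGeneralizedCharacter G α := isGeneralizedCharacter_indFun (df_gen 1 mu)
  have i1 : classInner α (fun _ => 1) = 1 := inner_ind_one hm
  have i2 : classInner α χ = 0 := by
    rw [classInner_indFun_left B _ D.irr.isClassFunction, classInner, Finset.sum_eq_zero, mul_zero]
    intro a _
    by_cases ha : a = 1
    · rw [ha, df_one, zero_mul]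
    · rw [D.hc, hz a (cl_of_mem a.2 fun h => ha (Subtype.ext h))]; simp
  have i3 : ∀ θ ∈ Θ, classInner α θ = δ := fun θ hθ => by
    rw [D.inner_off (fun g hg => ind_eq_zero (df_one _ _) (F.disj g hg)) hθ, i1, i2]; simp
  have i4 : classInner α α = 5 := by rw [F.ssc.norm_df_one hm, F.idx]; norm_num
  obtain ⟨θ₁, θ₂, θ₃, n1, n2, n3, rfl⟩ := Finset.card_eq_three.1 hk
  have m1 : θ₁ ∈ ({θ₁, θ₂, θ₃} : Finset (G → ℂ)) := by simp
  have m2 : θ₂ ∈ ({θ₁, θ₂, θ₃} : Finset (G → ℂ)) := by simp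
  have m3 : θ₃ ∈ ({θ₁, θ₂, θ₃} : Finset (G → ℂ)) := by simp
  have hδ : (δ : ℂ) = 1 ∨ (δ : ℂ) = -1 := by rcases D.hδ with rfl | rfl <;> simp
  have o := fun θ hθ => isIrrCharacter_one.classInner_of_ne (D.irrθ θ hθ) (D.θ_ne_one θ hθ).symm
  obtain ⟨g1, q1, -⟩ := peel_irr hg isIrrCharacter_one (Or.inl rfl) i1
  obtain ⟨g2, q2, -⟩ := peel_irr g1 (D.irrθ _ m1) hδ (by
    rw [classInner_sub_left, classInner_smul_left, i3 _ m1, o _ m1]; simp)
  obtain ⟨g3, q3, -⟩ := peel_irr g2 (D.irrθ _ m2) hδ (by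
    rw [classInner_sub_left, classInner_sub_left, classInner_smul_left, classInner_smul_left, i3 _ m2,
      o _ m2, (D.irrθ _ m1).classInner_of_ne (D.irrθ _ m2) n1]; simp)
  obtain ⟨g4, q4, -⟩ := peel_irr g3 (D.irrθ _ m3) hδ (by
    rw [classInner_sub_left, classInner_sub_left, classInner_sub_left, classInner_smul_left,
      classInner_smul_left, classInner_smul_left, i3 _ m3,
      o _ m3, (D.irrθ _ m1).classInner_of_ne (D.irrθ _ m3) n2,
      (D.irrθ _ m2).classInner_of_ne (D.irrθ _ m3) n3]; simp)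
  obtain ⟨φ, ε, hφ, hε, e⟩ := exists_eq_sign_smul_of_norm_one g4 (by rw [q4, q3, q2, q1, i4]; norm_num)
  have hε2 : ε * ε = 1 := by rcases hε with rfl | rfl <;> simp
  have v : ∀ u : G, u * u = 1 → ε * φ u = -(3 * c u + 4) := fun u hu => by
    have := congrFun e u
    simp only [Pi.sub_apply, Pi.smul_apply, smul_eq_mul, D.off m1 (D.not_cl_of_sq hu),
      D.off m2 (D.not_cl_of_sq hu), D.off m3 (D.not_cl_of_sq hu)] at this
    rw [hα, ind_eq_zero (df_one _ _) (F.not_cl_of_sq hu)] at this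
    linear_combination -this - 3 * (c u + 1) * D.dsq'
  have p0 := F.ssc.pairSum_ind F.odd hs (df_one 1 mu) hs.sq hs.sq
  rw [if_pos ⟨IsConj.refl s, IsConj.refl s⟩, sum_df_one hm] at p0
  have p1 := congrArg (pairSum s s) e
  rw [pairSum_sub, pairSum_sub, pairSum_sub, pairSum_sub, one_smul, pairSum_one, p0, pairSum_smul s s ε,
    pairSum_irr s s hφ] at p1
  have p2 := D.pairSum_θ m1 hs.sq hs.sq
  have p3 := D.pairSum_θ m2 hs.sq hs.sq
  have p4 := D.pairSum_θ m3 hs.sq hs.sq
  have p5 : (((centralizer ({s} : Set G)).index : ℂ)) ^ 2 * (c 1 - c s) ^ 2 =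
      c 1 * (c 1 + 1) * (Nat.card G * 7) := by
    have := D.index_formula hs.sq hs.ne_one
    rw [h7] at this
    exact_mod_cast this
  have v1 := v 1 (mul_one 1)
  have v2 := v s hs.sq
  have p6 : ε * φ 1 * (ε * (((centralizer ({s} : Set G)).index : ℂ) *
      (centralizer ({s} : Set G)).index * (φ s * φ s / φ 1))) =
      ((centralizer ({s} : Set G)).index : ℂ) ^ 2 * (ε * φ s) ^ 2 := by
    have := hφ.apply_one_ne_zero
    field_simp
  rw [← p1, v1, v2] at p6
  have h0 : (Nat.card G : ℂ) * (c 1 + 1) ≠ 0 :=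
    mul_ne_zero (card_ne_zero G) (by exact_mod_cast D.X_ne')
  have : (Nat.card B : ℂ) * (3 * c 1 + 4) = 21 * c 1 := by
    refine mul_left_cancel₀ h0 ?_
    linear_combination -(c 1 + 1) * p6 + (3 * c 1 + 4) * (p2 + p3 + p4) + 3 * p5
  have e' : (Nat.card B : ℤ) * (3 * c 1 + 4) = 21 * c 1 := by exact_mod_cast this
  obtain ⟨j, hj⟩ := h1
  have hB : (Nat.card B : ℤ) ≠ 0 := by exact_mod_cast Nat.card_pos.ne'
  have : 3 * c 1 + 4 = 21 * j := mul_left_cancel₀ hB (by rw [e', hj]; ring)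
  omega

/-- Both orders divide `X + 1`. -/
theorem caseA (F : Four A B) (F' : Four A B') (hd : ∀ g, Cl B g → ¬ Cl B' g) :
    (∀ g, Cl B g → c g = -1) ∧ (Nat.card B : ℤ) ∣ c 1 + 1 := by
  obtain ⟨z, hz, h1, h2⟩ := D.val F
  obtain ⟨z', hz', h1', h2'⟩ := D.val F'
  rcases hz with rfl | rfl
  · exfalso
    rcases hz' with rfl | rfl
    · exact D.not_both_zero F F' hd h1 h1'
    · rcases D.card_of_zero F h1 with h | h
      · exact D.not_five F F' hd h1 (by simpa using h2) (by simpa using h2') h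
      · exact D.not_seven F h1 (by simpa using h2) h
  · exact ⟨h1, by simpa using h2⟩

end Two

end Cfsg.Lib.SCS
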