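import Cfsg.Agent.SCS.Inv

/-!
# Integer valued sums over pairs of conjugate involutions; a dihedral bound
-/

set_option autoImplicit false

namespace Cfsg.Lib.SCS

open Cfsg Subgroup Cfsg.Lib.Char SSC
open scoped ComplexConjugate

variable {G : Type*} [Group G] [Fintype G]

open Classical in
/-- The integer version of `pairSum t t`. -/
noncomputable def pz (t : G) (F : G → ℤ) : ℤ :=
  ∑ a ∈ Finset.univ.filter (fun a : G => IsConj t a),
    ∑ b ∈ Finset.univ.filter (fun b : G => IsConj t b), F (a * b)

theorem cast_pz (t : G) (F : G → ℤ) : (pz t F : ℂ) = pairSum t t fun g => F g := by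
  simp [pz, pairSum]

theorem pz_mono (t : G) {F F' : G → ℤ} (h : ∀ g, F g ≤ F' g) : pz t F ≤ pz t F' :=
  Finset.sum_le_sum fun _ _ => Finset.sum_le_sum fun _ _ => h _

theorem pz_add (t : G) (F F' : G → ℤ) : pz t (fun g => F g + F' g) = pz t F + pz t F' := by
  simp [pz, Finset.sum_add_distrib]

theorem pz_sub (t : G) (F F' : G → ℤ) : pz t (fun g => F g - F' g) = pz t F - pz t F' := by
  simp [pz, Finset.sum_sub_distrib]

theorem pz_mul (t : G) (z : ℤ) (F : G → ℤ) : pz t (fun g => z * F g) = z * pz t F := by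
  simp [pz, Finset.mul_sum]

theorem pz_one (t : G) : pz t (fun _ => 1) = ((centralizer ({t} : Set G)).index : ℤ) ^ 2 := by
  apply Int.cast_injective (α := ℂ)
  rw [cast_pz]
  push_cast
  rw [Two.pairSum_one, pow_two]

open Classical in
theorem pz_delta {t : G} (ht : t * t = 1) :
    pz t (fun g => if g = 1 then 1 else 0) = (centralizer ({t} : Set G)).index := by
  rw [pz, Finset.sum_congr rfl (g := fun _ => 1), Finset.sum_const, nsmul_eq_mul, mul_one,
    ← card_filter_isConj]
  intro a ha
  have ha' := mul_self_eq_one_of_isConj ht (Finset.mem_filter.1 ha).2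
  rw [Finset.sum_eq_single a (fun b _ hb => if_neg fun h => hb
    (mul_left_cancel (h.trans ha'.symm))) (fun h => absurd ha h), if_pos ha']

open Classical in
theorem pz_le {t : G} (ht : t * t = 1) (Z : Finset G) {k : ℤ}
    (hk : ∀ y ∈ Z, (Nat.card (centralizer ({y} : Set G)) : ℤ) ≤ k) :
    pz t (fun g => if g ∈ Z then 1 else 0) ≤ k * Z.card := by
  calc pz t (fun g => if g ∈ Z then 1 else 0)
      ≤ ∑ a : G, ∑ y ∈ Z, if a * y * a⁻¹ = y⁻¹ then (1 : ℤ) else 0 := by
        refine le_trans (Finset.sum_le_sum fun a ha => ?_) (Finset.sum_le_sum_of_subset_of_nonneg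
          (Finset.filter_subset (fun a : G => IsConj t a) _)
          fun _ _ _ => Finset.sum_nonneg fun _ _ => by split_ifs <;> norm_num)
        have ha' := mul_self_eq_one_of_isConj ht (Finset.mem_filter.1 ha).2
        simp only [Finset.sum_boole, Nat.cast_le]
        refine Finset.card_le_card_of_injOn (fun b => a * b) (fun b hb => ?_)
          (fun b _ b' _ h => mul_left_cancel h)
        simp only [Finset.coe_filter, Finset.mem_filter, Finset.mem_univ, true_and,
          Set.mem_setOf_eq] at hb ⊢
        refine ⟨hb.2, ?_⟩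
        rw [← mul_assoc, ha', one_mul, mul_inv_rev,
          inv_eq_of_mul_eq_one_right (mul_self_eq_one_of_isConj ht hb.1)]
    _ ≤ ∑ _y ∈ Z, k := by
        rw [Finset.sum_comm]
        refine Finset.sum_le_sum fun y hy => le_trans ?_ (hk y hy)
        simp only [Finset.sum_boole, Nat.cast_le]
        by_cases h : IsConj y y⁻¹
        · exact (card_filter_conj_eq h).le
        · rw [Finset.filter_false_of_mem fun a _ ha => h (isConj_iff.2 ⟨a, ha⟩)]
          exact Nat.zero_le _
    _ = k * Z.card := by simp [mul_comm]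

namespace SSC

variable {B : Subgroup G}

open Classical in
theorem ind_indicator (h : SSC B) (g : G) : indFun B (fun a => if a = 1 then 0 else 1) g =
    B.relIndex (normalizer (B : Set G)) * ((if Cl B g then 1 else 0 : ℤ) : ℂ) := by
  have := Fintype.ofFinite (normalizer (B : Set G))
  split_ifs with hg
  · obtain ⟨hg1, x, hx⟩ := hg
    rw [← indFun_conj_apply B _ g x]
    have e2 := h.ind_apply (φ := fun a => if a = 1 then 0 else 1) (by simp) ⟨_, hx⟩
    rw [Finset.sum_congr rfl (g := fun _ => 1) (fun y _ => if_neg (fun h2 =>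
      conj_ne_one hg1 x (congrArg Subtype.val ((map_eq_one_iff _ (MulEquiv.injective _)).1 h2)))),
      Finset.sum_const, Finset.card_univ, ← Nat.card_eq_fintype_card, card_normalizer] at e2
    refine mul_left_cancel₀ (card_ne_zero B) ?_
    rw [e2]; simp [mul_comm]
  · rw [ind_eq_zero (by simp) hg]; simp

open Classical in
theorem pz_cl (h : SSC B) (ho : Odd (Nat.card B)) {s t : G} (hs : Inv B s) (hst : IsConj s t) :
    B.relIndex (normalizer (B : Set G)) * pz t (fun g => if Cl B g then 1 else 0) =
      Nat.card G * (Nat.card B - 1) := by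
  have := Fintype.ofFinite B
  have ht := mul_self_eq_one_of_isConj hs.sq hst
  have e := h.pairSum_ind ho hs (φ := fun a => if a = 1 then 0 else 1) (by simp) ht ht
  rw [if_pos ⟨hst, hst⟩, show indFun B (fun a => if a = 1 then 0 else 1) =
    (B.relIndex (normalizer (B : Set G)) : ℂ) • fun g => ((if Cl B g then 1 else 0 : ℤ) : ℂ) from
      funext h.ind_indicator, pairSum_smul, ← cast_pz] at e
  have e2 : ∑ a : B, (if a = 1 then 0 else 1 : ℂ) = Nat.card B - 1 := by
    rw [← Finset.sum_erase_add _ _ (Finset.mem_univ 1), if_pos rfl, add_zero,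
      Finset.sum_congr rfl (g := fun _ => 1) (fun a ha => if_neg (Finset.mem_erase.1 ha).1),
      Finset.sum_const, Finset.card_erase_of_mem (Finset.mem_univ _), Finset.card_univ,
      ← Nat.card_eq_fintype_card, nsmul_eq_mul, mul_one, Nat.cast_sub Nat.card_pos, Nat.cast_one]
  rw [e2] at e
  exact_mod_cast e

/-- The generalized dihedral group generated by `B` and an inverting involution. -/
def dih {s : G} (hs : Inv B s) : Subgroup G where
  carrier := {g | g ∈ B ∨ s * g ∈ B}
  one_mem' := Or.inl B.one_mem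
  mul_mem' := by
    have e : s⁻¹ = s := inv_eq_of_mul_eq_one_right hs.sq
    rintro g h (hg | hg) (hh | hh)
    · exact Or.inl (B.mul_mem hg hh)
    · exact Or.inr (by convert B.mul_mem (conj_mem hs.mem hg) hh using 1; group)
    · exact Or.inr (by convert B.mul_mem hg hh using 1; group)
    · refine Or.inl ?_
      convert B.mul_mem (conj_mem hs.mem hg) hh using 1
      rw [← mul_assoc s s, hs.sq]; group
  inv_mem' := by
    rintro g (hg | hg)
    · exact Or.inl (B.inv_mem hg)
    · refine Or.inr ?_
      convert conj_mem hs.mem (B.inv_mem hg) using 1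
      rw [mul_inv_rev, mul_assoc, mul_assoc, ← mul_inv_rev, hs.sq]; group

theorem dihedral_bound (ho : Odd (Nat.card B)) {s : G} (hs : Inv B s) {χ : G → ℂ}
    (hχ : IsCharacter G χ) (h0 : ∀ b ∈ B, b ≠ 1 → χ b = 0) :
    ∃ k : ℕ, χ 1 - Nat.card B * χ s = k := by
  classical
  have := Fintype.ofFinite (dih hs)
  have := Fintype.ofFinite B
  let sg : dih hs →* ℂˣ := MonoidHom.mk' (fun g => if (g : G) ∈ B then 1 else -1) (by
    intro g h
    by_cases hg : (g : G) ∈ B <;> by_cases hh : (h : G) ∈ B
    · simp [hg, hh, B.mul_mem hg hh]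
    · simp [hg, hh, B.mul_mem_cancel_left hg]
    · simp [hg, hh, B.mul_mem_cancel_right hh]
    · have : (g : G) * h ∈ B := by
        convert B.mul_mem (conj_mem hs.mem (g.2.resolve_left hg)) (h.2.resolve_left hh) using 1
        rw [← mul_assoc s s, hs.sq]; group
      simp [hg, hh, this])
  obtain ⟨k, hk⟩ := (hχ.res (dih hs)).exists_nat_classInner (isIrrCharacter_monoidHom sg).isCharacter
  have e := card_mul_classInner (fun g : dih hs => χ g) (fun g => (sg g : ℂ))
  refine ⟨Nat.card (dih hs) * k, ?_⟩
  rw [hk] at e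
  push_cast
  rw [e]
  let f : B ⊕ B → dih hs := Sum.elim (fun b => ⟨b, Or.inl b.2⟩)
    (fun b => ⟨s * b, Or.inr (by rw [← mul_assoc, hs.sq, one_mul]; exact b.2)⟩)
  have hn : ∀ b : B, s * b ∉ B := fun b h => hs.notMem ((B.mul_mem_cancel_right b.2).1 h)
  have hf : Function.Bijective f := by
    constructor
    · rintro (a | a) (b | b) hab <;> have hab := congrArg Subtype.val hab <;>
        simp only [f, Sum.elim_inl, Sum.elim_inr] at hab
      · rw [Subtype.ext hab]
      · exact absurd (hab ▸ a.2) (hn b)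
      · exact absurd (hab ▸ b.2) (hn a)
      · rw [Subtype.ext (mul_left_cancel hab)]
    · rintro ⟨g, hg | hg⟩
      · exact ⟨Sum.inl ⟨g, hg⟩, rfl⟩
      · exact ⟨Sum.inr ⟨s * g, hg⟩, Subtype.ext (by
          simp only [f, Sum.elim_inr]; rw [← mul_assoc, hs.sq, one_mul])⟩
  rw [← hf.sum_comp, Fintype.sum_sum_type, Finset.sum_eq_single (1 : B) (fun b _ hb => by
    simp [f, h0 b b.2 (fun h => hb (Subtype.ext h))]) (by simp),
    Finset.sum_congr rfl (g := fun _ => -χ s) (fun b _ => by
      simp [f, sg, hn b, ← hχ.isClassFunction.eq_of_isConj (hs.isConj ho b.2)])]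
  simp [f, sg, sub_eq_add_neg]

end SSC

end Cfsg.Lib.SCS
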